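import Cfsg.Agent.H454.Reg.Tools
import Cfsg.Agent.H304.PslTransfer
import Cfsg.Prelude.Def_GeometricClasses

/-!
# S3691: the row `PSL_n(q)`, `n ≥ 3`: definitions (helper851)

* `pg e X` : the preimage in `SL_n(F) ≤ GL_n(F)` of `X ∩ T`, `e : T ≃* PSL_n(F)`
* `VStab v` : the stabiliser of the vector `v` in `SL_n(F)`;  `UGrp v` : the transvections with centre `v`
* `Pt R v` : `R` fixes `⟨v⟩` and induces at least `SL` on `V / ⟨v⟩`
* `Out k R` : `R` normalises a field of matrices of prime degree `s ∣ n, k`, or consists of similarities of a symplectic form,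
  of a quadratic form (`k` even), or of a unitary form (`k` odd)
* `C9 n k` : bounds for the orders of the residual groups in dimension `3 ≤ n ≤ 9`
-/

set_option autoImplicit false

namespace Cfsg.Agent.H851.Rl

open Cfsg Cfsg.Geo Matrix
open Cfsg.Agent.H304.PslT (pre pr)
open scoped MatrixGroups

universe u

/-- the preimage in `GL_n(F)` of `X ∩ T` -/
def pg {G : Type u} [Group G] {T : Subgroup G} {n : ℕ} {F : Type} [Field F]
    (e : T ≃* Matrix.ProjectiveSpecialLinearGroup (Fin n) F) (X : Subgroup G) : Subgroup (GL (Fin n) F) :=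
  pre ((X.subgroupOf T).map e.toMonoidHom)

section

variable {n : ℕ} {F : Type} [Field F]

/-- the stabiliser of the vector `v` in `SL_n(F)` -/
def VStab (v : Fin n → F) : Subgroup (GL (Fin n) F) where
  carrier := {x | x ∈ specialLinear (Fin n) F ∧ (x : Matrix (Fin n) (Fin n) F) *ᵥ v = v}
  one_mem' := ⟨Subgroup.one_mem _, by rw [Units.val_one, one_mulVec]⟩
  mul_mem' := fun {x y} hx hy => ⟨Subgroup.mul_mem _ hx.1 hy.1, by
    rw [Units.val_mul, ← mulVec_mulVec, hy.2, hx.2]⟩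
  inv_mem' := fun {x} hx => ⟨Subgroup.inv_mem _ hx.1, by
    conv_lhs => rw [← hx.2]
    rw [mulVec_mulVec, ← Units.val_mul, inv_mul_cancel, Units.val_one, one_mulVec]⟩

/-- `R` fixes `⟨v⟩` and induces at least `SL` on `V / ⟨v⟩` -/
structure Pt (R : Subgroup (GL (Fin n) F)) (v : Fin n → F) : Prop where
  ne : v ≠ 0
  le : R ≤ specialLinear (Fin n) F
  fix : ∀ x ∈ R, ∃ c : F, (x : Matrix (Fin n) (Fin n) F) *ᵥ v = c • v
  top : ∀ x ∈ VStab v, ∃ y ∈ R, ∀ w : Fin n → F, ∃ c : F,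
    (y : Matrix (Fin n) (Fin n) F) *ᵥ w = (x : Matrix (Fin n) (Fin n) F) *ᵥ w + c • v

/-- `R` contains no nontrivial transvection with centre `v` -/
def NoU (R : Subgroup (GL (Fin n) F)) (v : Fin n → F) : Prop :=
  ∀ x ∈ R, (∀ w : Fin n → F, ∃ c : F, (x : Matrix (Fin n) (Fin n) F) *ᵥ w = w + c • v) → x = 1

end

section

variable {ι : Type} [Fintype ι] [DecidableEq ι] {F : Type} [Field F]

/-- the upper bounds -/
def Out (k : ℕ) (R : Subgroup (GL ι F)) : Prop :=
  (∃ (s : ℕ) (K : Subalgebra F (Matrix ι ι F)), s.Prime ∧ s ∣ Fintype.card ι ∧ s ∣ k ∧ IsFieldSubalgebra s K ∧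
    R ≤ subalgebraNormalizer K) ∨
  (Even k ∧ Even (Fintype.card ι) ∧ ∃ f : (ι → F) → (ι → F) → F, IsSymplecticForm f ∧ R ≤ similarityGroup f) ∨
  (Even k ∧ ∃ Q : (ι → F) → F, IsNondegenerateQuadraticForm Q ∧ R ≤ quadSimilarityGroup Q) ∨
  (Odd k ∧ ∃ (σ : F ≃+* F) (f : (ι → F) → (ι → F) → F), IsUnitaryForm σ f ∧ R ≤ similarityGroup f)

end

/-- bounds for the orders of the residual groups -/
def C9 (n k : ℕ) : ℕ :=
  if n = 3 then 4320 else if n = 4 then 207360 else if n = 5 ∧ k = 5 then 39600 else if n = 7 ∧ k = 7 then 0 else 235146240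

end Cfsg.Agent.H851.Rl
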