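import Cfsg.Agent.H851.Rl.List
import Cfsg.Agent.H851.Rl.PDefs
import Cfsg.Agent.H659.CovCore
import Cfsg.Agent.H831.Rl.Ov
import Cfsg.Agent.H396.Rl.OvOmega
import Cfsg.Agent.H304.PpdClass
import Cfsg.Agent.H917.LinFine
import Cfsg.Agent.H914.Uni

/-!
# S3691: upper bounds for irreducible groups, `n ≥ 10` (helper851)

* `ppd_of`, `elt_of_dvd`, `sim_even`, `qsim_even`, `uni_odd`, `ext_dvd'` : primitive primes and the bounds `Out`
* `list10` : an irreducible group `R ≤ GL_n(q)`, `n ≥ 10`, of order divisible by `r ^ a` (`Big p f k r a`, `n < 2 k`), not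
  containing `SL_n`, satisfies `Out k R`.
* `Out.split` : two primes
-/

set_option autoImplicit false

namespace Cfsg.Agent.H851.Rl

open Cfsg Cfsg.Geo Module Matrix Cfsg.Agent.H728.DghpNum
open scoped MatrixGroups

theorem gpps_of (hP : H659.CovCore.S5948Stmt.{0}) : GPPS := fun _ _ _ _ h n k h1 h2 g h3 h4 h5 H h6 h7 =>
  hP h n k h1 h2 g h3 h4 h5 H h6 h7

/-- a `p`-primitive prime is `q`-primitive -/
theorem ppd_of {p f k u q : ℕ} (hp : p.Prime) (hf : 1 ≤ f) (hq : q = p ^ f) (hu : u.Prime)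
    (hord : orderOf ((p : ℕ) : ZMod u) = f * k) (hk : 1 ≤ k) : Ppd q k u := by
  have := Fact.mk hu
  have hne : ((p : ℕ) : ZMod u) ≠ 0 := by
    intro h0
    rw [h0, orderOf_eq_zero_iff'.2 (by
      intro m hm
      rw [zero_pow hm.ne']; exact zero_ne_one)] at hord
    have : 1 ≤ f * k := Nat.mul_pos hf hk
    omega
  refine ⟨hu, ?_, ?_⟩
  · rw [hq, Nat.cast_pow, orderOf_pow' _ (by omega : f ≠ 0), hord, Nat.gcd_mul_right_left, Nat.mul_div_cancel_left _ hf]
  · rw [hq]
    intro h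
    exact hne ((ZMod.natCast_eq_zero_iff p u).2 (hu.dvd_of_dvd_pow h))

section

variable {ι : Type} [Fintype ι] [DecidableEq ι] {F : Type} [Field F] [Fintype F] {R : Subgroup (GL ι F)}

theorem elt_of_dvd {u : ℕ} (hu : u.Prime) (hR : u ∣ Nat.card R) : ∃ x ∈ R, orderOf x = u := by
  have := Fact.mk hu
  obtain ⟨x, hx⟩ := exists_prime_orderOf_dvd_card' (G := R) u hR
  exact ⟨x, x.2, by rw [Subgroup.orderOf_coe]; exact hx⟩

theorem sim_even [Nonempty ι] {u k : ℕ} (hP : Ppd (Fintype.card F) k u) (h2 : 2 ≤ k) (hn : Fintype.card ι < 2 * k)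
    (hR : u ∣ Nat.card R) {g : (ι → F) → (ι → F) → F} (hg : IsBilinearForm g) (hg' : IsNondegenerateForm g)
    (hle : R ≤ similarityGroup g) : Even k := by
  obtain ⟨x, hx, hxu⟩ := elt_of_dvd hP.prime hR
  exact Cfsg.Agent.H304.Ppd.even_of_bilinear hP h2 hn hxu hg hg' (hle hx)

theorem qsim_even [Nonempty ι] {u k : ℕ} (hP : Ppd (Fintype.card F) k u) (h2 : 2 ≤ k) (hn : Fintype.card ι < 2 * k)
    (hR : u ∣ Nat.card R) {Q : (ι → F) → F} (hQ : IsNondegenerateQuadraticForm Q)
    (hle : R ≤ quadSimilarityGroup Q) : Even k := by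
  obtain ⟨x, hx, hxu⟩ := elt_of_dvd hP.prime hR
  exact Cfsg.Agent.H304.Ppd.even_of_quadratic hP h2 hn hxu hQ (hle hx)

/-- the field has square order if there is a unitary form -/
theorem exists_half {p f : ℕ} (hp : p.Prime) (hF : Fintype.card F = p ^ f) {σ : F ≃+* F} (hne : σ ≠ RingEquiv.refl F)
    (hinv : ∀ a, σ (σ a) = a) : CharP F p ∧ ∃ k, f = 2 * k ∧ ∀ a, σ a = a ^ p ^ k := by
  obtain ⟨p', k, hp', hc, hF', hσ⟩ := Cfsg.Agent.H304.Ppd.exists_frobenius hne hinv
  have h1 : p ^ f = p' ^ (k * 2) := by rw [← hF, hF', ← pow_mul]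
  have hf0 : f ≠ 0 := by
    rintro rfl
    rw [pow_zero] at hF
    have := Fintype.one_lt_card (α := F)
    omega
  have h2 : p = p' := by
    have h3 : p ∣ p' ^ (k * 2) := h1 ▸ dvd_pow_self p hf0
    exact (Nat.prime_dvd_prime_iff_eq hp hp').1 (hp.dvd_of_dvd_pow h3)
  subst h2
  refine ⟨hc, k, ?_, hσ⟩
  have := Nat.pow_right_injective hp.two_le h1
  omega

theorem uni_odd [Nonempty ι] {p f k u : ℕ} (hp : p.Prime) (hF : Fintype.card F = p ^ f) (hu : u.Prime)
    (hord : orderOf ((p : ℕ) : ZMod u) = f * k) (h2 : 2 ≤ k) (hn : Fintype.card ι < 2 * k)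
    (hR : u ∣ Nat.card R) {σ : F ≃+* F} {g : (ι → F) → (ι → F) → F} (hg : IsUnitaryForm σ g)
    (hle : R ≤ similarityGroup g) : Odd k := by
  obtain ⟨hc, k₀, hk₀, hσ⟩ := exists_half hp hF hg.ne_refl hg.involutive
  have := Fact.mk hp
  obtain ⟨x, hx, hxu⟩ := elt_of_dvd hu hR
  have hf1 : 1 ≤ k₀ := by
    rcases Nat.eq_zero_or_pos k₀ with h | h
    · subst h
      rw [hk₀] at hF
      have := Fintype.one_lt_card (α := F)
      simp at hF
      omega
    · exact h
  refine Cfsg.Agent.H304.Ppd.odd_of_unitary (p := p) (k := k₀) (by rw [hF, hk₀, ← pow_mul, mul_comm]) ?_ h2 hn hxu hσ hg (hle hx)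
  exact ppd_of hp hf1 rfl hu (by rw [hord, hk₀]; ring) (by omega)

/-- a `q`-primitive prime dividing the order of an extension field group -/
theorem ext_dvd' [Nonempty ι] {s k u : ℕ} (hs : s.Prime) (hP : Ppd (Fintype.card F) k u) (h1 : 1 ≤ k) (hn : Fintype.card ι < 2 * k)
    {K : Subalgebra F (Matrix ι ι F)} (hK : IsFieldSubalgebra s K) (hle : R ≤ subalgebraNormalizer K)
    (hR : u ∣ Nat.card R) : u = s ∨ s ∣ k := by
  have hrF : ¬ u ∣ Nat.card F := by rw [Nat.card_eq_fintype_card]; exact hP.ndvd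
  rcases Cfsg.Agent.H251.GeoCard.extension hs hK hP.prime hrF (hR.trans (Subgroup.card_dvd_of_le hle)) with
    h1 | ⟨i, h1, h2, h3⟩
  · exact Or.inl h1
  · right
    rw [Nat.card_eq_fintype_card, ← pow_mul, hP.dvd_iff] at h3
    have h4 : s * i ≤ Fintype.card ι := (Nat.mul_le_mul_left s h2).trans (Nat.mul_div_le _ _)
    obtain ⟨c, hc⟩ := h3
    have hsi : 1 ≤ s * i := Nat.mul_pos hs.pos h1
    have hc1 : c = 1 := by
      have : c < 2 := by
        by_contra hcon
        push Not at hcon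
        have := Nat.mul_le_mul_left k hcon
        omega
      have : c ≠ 0 := by rintro rfl; omega
      omega
    rw [hc1, mul_one] at hc
    exact ⟨i, hc.symm⟩

/-- **THE LIST LEMMA, upper bounds.** -/
theorem list10 (G : GPPS) {p f k r a : ℕ} (hF : Fintype.card F = p ^ f) (h : Big p f k r a) (hn : 10 ≤ Fintype.card ι)
    (hk : Fintype.card ι < 2 * k) (hR : r ^ a ∣ Nat.card R) (hirr : ActsIrreducibly (matrixSet R))
    (hne : ¬ specialLinear ι F ≤ R) : Out k R := by
  have hι : Nonempty ι := Fintype.card_pos_iff.1 (by omega)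
  have hr : r ∣ Nat.card R := (dvd_pow_self r (by have := h.a_pos; omega)).trans hR
  have hP : Ppd (Fintype.card F) k r := ppd_of h.hp h.hf hF h.prime h.ord h.hk
  rcases irr G hF h hn hk hR hirr with ⟨s, hs, hsd, E, hE, hle⟩ | h1 | ⟨g, hg, h1⟩ | ⟨τ, g, hg, h1⟩ | ⟨Q, hQ, h1⟩
  · exact Or.inl ⟨s, E, hs, hsd.trans (Nat.gcd_dvd_left _ _), hsd.trans (Nat.gcd_dvd_right _ _), hE, hle⟩
  · exact absurd h1 hne
  · right; left
    have hle : R ≤ similarityGroup g := by
      intro x hx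
      by_contra hxg
      exact hne (Cfsg.Agent.H831.Rl.ov_sp (by omega) hg h1 hx hxg)
    exact ⟨sim_even hP (by omega) hk hr hg.bilinear hg.nondegenerate hle, Cfsg.Agent.H914.even_card_of_symplectic hg, g, hg, hle⟩
  · right; right; right
    have hle : R ≤ similarityGroup g := by
      intro x hx
      by_contra hxg
      exact hne (Cfsg.Agent.H831.Rl.ov_su (by omega) hg h1 hx hxg)
    exact ⟨uni_odd h.hp hF h.prime h.ord (by omega) hk hr hg hle, τ, g, hg, hle⟩
  · have hle : R ≤ similarityGroup (QuadraticMap.polar Q) := by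
      intro x hx
      by_contra hxg
      exact hne (Cfsg.Agent.H396.Rl.ov_omega (by omega) hQ h1 hx hxg)
    have he : Even k := sim_even hP (by omega) hk hr hQ.polar_bilinear hQ.nondegenerate hle
    by_cases h2 : (2 : F) = 0
    · right; left
      have hs := Cfsg.Agent.H917.polar_symplectic_of_two h2 hQ
      exact ⟨he, Cfsg.Agent.H914.even_card_of_symplectic hs, _, hs, hle⟩
    · right; right; left
      refine ⟨he, Q, hQ, fun x hx => ?_⟩
      obtain ⟨c, hc⟩ := hle hx
      refine ⟨c, fun v => ?_⟩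
      have key : ∀ w : ι → F, QuadraticMap.polar Q w w = 2 * Q w := by
        intro w
        have h3 : Q (w + w) = 2 ^ 2 * Q w := by rw [← two_smul F w, hQ.smul]
        rw [QuadraticMap.polar, h3]; ring
      have h4 := hc v v
      rw [key, key] at h4
      exact mul_left_cancel₀ h2 (by rw [h4]; ring)

end

end Cfsg.Agent.H851.Rl
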