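import Cfsg.Agent.H815.Rl.PslNine
import Cfsg.Agent.H55.Rl.Block
import Cfsg.Agent.H851.Rl.List10
import Cfsg.Agent.H951.Rl.ExtSL
import Cfsg.Agent.H951.Rl.Sim

/-!
# S3691, row `PSL_n(q)`: tools for the main reduction (helper851)

* `pg_le`, `not_sl_le` : `pg e X ≤ SL_n`, and it is not all of `SL_n` if `X` does not contain `T`
* `block_card` : a group fixing `⟨v⟩`, not `Pt`: the order of the block
* `point_of` : if `pg e Y` fixes a point or a hyperplane, then after a change of `e` it fixes a point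
* `Out.card_le_even`, `Out.card_le_odd` : the orders
-/

set_option autoImplicit false
set_option linter.unusedSectionVars false

namespace Cfsg.Agent.H851.Rl

open Cfsg Cfsg.Geo Module Matrix Cfsg.Agent.H728.DghpNum Cfsg.Agent.H454.Reg
open Cfsg.Agent.H304.PslT (pre pr)
open scoped MatrixGroups

universe u

section

variable {G : Type u} [Group G] {T : Subgroup G} {n : ℕ} {F : Type} [Field F]
  (e : T ≃* Matrix.ProjectiveSpecialLinearGroup (Fin n) F)

theorem pg_le (X : Subgroup G) : pg e X ≤ specialLinear (Fin n) F :=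
  fun _ hx => Cfsg.Agent.H304.PslT.mem_specialLinear_of_mem_pre hx

theorem not_sl_le {X : Subgroup G} (h : ¬ T ≤ X) : ¬ specialLinear (Fin n) F ≤ pg e X := by
  intro hle
  apply h
  intro t ht
  obtain ⟨g, hg⟩ := QuotientGroup.mk'_surjective (Subgroup.center (Matrix.SpecialLinearGroup (Fin n) F)) (e ⟨t, ht⟩)
  have h1 : Matrix.SpecialLinearGroup.toGL g ∈ pg e X := hle (by
    rw [← Cfsg.Agent.H304.PslT.range_toGL]; exact ⟨g, rfl⟩)
  obtain ⟨g', hg', h2⟩ := h1
  have h3 : g' = g := Cfsg.Agent.H304.PslT.toGL_injective h2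
  subst h3
  have h4 : pr n F g' ∈ (X.subgroupOf T).map e.toMonoidHom := hg'
  obtain ⟨x, hx, h5⟩ := h4
  have h6 : e x = e ⟨t, ht⟩ := h5.trans hg
  have h7 : x = ⟨t, ht⟩ := e.injective h6
  rw [h7] at hx
  exact hx

end

section

variable {F : Type} [Field F] [Fintype F]

/-- the order of the block -/
theorem block_card {m : ℕ} {R : Subgroup (GL (Fin (m + 1)) F)} {v : Fin (m + 1) → F} (hv : v ≠ 0)
    (hR : R ≤ specialLinear (Fin (m + 1)) F)
    (hfix : ∀ x ∈ R, ∃ c : F, (x : Matrix (Fin (m + 1)) (Fin (m + 1)) F) *ᵥ v = c • v) (hno : ¬ Pt R v) :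
    ∃ S : Subgroup (GL (Fin m) F), ¬ specialLinear (Fin m) F ≤ S ∧ Nat.card R ≤ Fintype.card F ^ m * Nat.card S ∧
      ∀ r a : ℕ, r.Prime → ¬ r ∣ Fintype.card F → r ^ a ∣ Nat.card R → r ^ a ∣ Nat.card S := by
  obtain ⟨φ, h1, h2⟩ := Cfsg.Agent.H55.Rl.block hv hR hfix
  have h3 : Nat.card φ.ker * Nat.card φ.range = Nat.card R := by
    have := φ.ker.card_mul_index
    rwa [Subgroup.index_ker] at this
  refine ⟨φ.range, fun h => hno (h2 h), ?_, ?_⟩
  · rw [← h3]
    exact Nat.mul_le_mul_right _ (Nat.le_of_dvd (Nat.pow_pos Fintype.card_pos) h1)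
  · intro r a hr hrF hd
    rw [← h3] at hd
    refine (Nat.Coprime.pow_left a ?_).dvd_of_dvd_mul_left hd
    rw [hr.coprime_iff_not_dvd]
    intro h4
    exact hrF (hr.dvd_of_dvd_pow (h4.trans h1))

omit [Fintype F] in
theorem exists_span_of_finrank_one {ι : Type} [Fintype ι] {W : Submodule F (ι → F)} (h : finrank F W = 1) :
    ∃ v : ι → F, v ≠ 0 ∧ W = F ∙ v := by
  obtain ⟨⟨v, hv⟩, hv0, h1⟩ := finrank_eq_one_iff'.1 h
  refine ⟨v, fun h0 => hv0 (Subtype.ext h0), ?_⟩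
  apply le_antisymm
  · intro w hw
    obtain ⟨c, hc⟩ := h1 ⟨w, hw⟩
    exact Submodule.mem_span_singleton.2 ⟨c, congrArg Subtype.val hc⟩
  · rw [Submodule.span_singleton_le_iff_mem]
    exact hv

variable {G : Type u} [Group G] [Finite G] {T : Subgroup G} {n : ℕ}

/-- change of the identification -/
theorem point_of (hn : 3 ≤ n) (e : T ≃* Matrix.ProjectiveSpecialLinearGroup (Fin n) F) (Y : Subgroup G)
    {W : Submodule F (Fin n → F)} (hW : finrank F W = 1 ∨ finrank F W + 1 = n) (hY : pg e Y ≤ subspaceStabilizer W) :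
    ∃ (e' : T ≃* Matrix.ProjectiveSpecialLinearGroup (Fin n) F) (v : Fin n → F), v ≠ 0 ∧
      (∀ x ∈ pg e' Y, ∃ c : F, (x : Matrix (Fin n) (Fin n) F) *ᵥ v = c • v) ∧
      ∀ Z : Subgroup G, Nat.card (pg e' Z) = Nat.card (pg e Z) := by
  rcases hW with hW | hW
  · obtain ⟨v, hv, rfl⟩ := exists_span_of_finrank_one hW
    refine ⟨e, v, hv, fun x hx => ?_, fun _ => rfl⟩
    have h1 : (x : Matrix (Fin n) (Fin n) F) *ᵥ v ∈ F ∙ v :=
      Cfsg.Agent.H304.Ppd.mem_of_subspaceStabilizer (hY hx) v (Submodule.mem_span_singleton_self v)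
    obtain ⟨c, hc⟩ := Submodule.mem_span_singleton.1 h1
    exact ⟨c, hc.symm⟩
  · obtain ⟨e', he'⟩ := Cfsg.Agent.H815.Rl.twist hn e
    obtain ⟨v, hv, h1⟩ := Cfsg.Agent.H815.Rl.dual_fix hW hY
    refine ⟨e', v, hv, ?_, fun Z => ?_⟩
    · rw [he']; exact h1
    · rw [he', Subgroup.card_map_of_injective (Function.LeftInverse.injective Cfsg.Agent.H199.PslAut.itGL_itGL)]


/-! ### killing the unitary groups -/

/-- `R` lies in a group of unitary similarities -/
def Uni {ι : Type} [Fintype ι] [DecidableEq ι] (R : Subgroup (GL ι F)) : Prop :=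
  ∃ (σ : F ≃+* F) (g : (ι → F) → (ι → F) → F), IsUnitaryForm σ g ∧ R ≤ similarityGroup g

/-- the prime `r'` -/
theorem kill {X Y : Subgroup G} (h : Fac T X Y) (hn : 3 ≤ n)
    (e : T ≃* Matrix.ProjectiveSpecialLinearGroup (Fin n) F) {p f₀ k : ℕ} (hp : p.Prime)
    (hF : Fintype.card F = p ^ (2 * f₀)) (hk : n < 2 * k) (hkn : k ≤ n) (hodd : Odd k) (h6 : ¬ (p = 2 ∧ f₀ * k = 6)) :
    ∃ r : ℕ, r.Prime ∧ orderOf ((p ^ f₀ : ℕ) : ZMod r) = k ∧ Ppd (Fintype.card F) k r ∧
      (r ∣ Nat.card (pg e X) ∨ r ∣ Nat.card (pg e Y)) := by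
  have hf₀ : 1 ≤ f₀ := by
    rcases Nat.eq_zero_or_pos f₀ with h0 | h0
    · subst h0
      have := Fintype.one_lt_card (α := F)
      simp at hF
      omega
    · exact h0
  have hk3 : 3 ≤ k := by
    rcases hodd with ⟨m, hm⟩
    omega
  obtain ⟨r, hr⟩ := exists_ppd (q := p) (e := f₀ * k) hp.two_le (by nlinarith) h6
  have h1 : Ppd (p ^ f₀) k r := ppd_of hp hf₀ rfl hr.prime hr.ord (by omega)
  have h2 : Ppd (Fintype.card F) k r := by
    have := h1.pow 2 two_ne_zero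
    rw [← pow_mul, mul_comm f₀, ← hF, (Nat.coprime_two_right.2 hodd).gcd_eq_one, Nat.div_one] at this
    exact this
  have hlt : f₀ * k < r := hr.lt
  have hr2 : r ≠ 2 := by
    have : 3 ≤ f₀ * k := by nlinarith
    omega
  have hrf : ¬ r ∣ 2 * (2 * f₀) := by
    intro hd
    rcases (hr.prime.dvd_mul).1 hd with h3 | h3
    · exact hr2 ((Nat.prime_dvd_prime_iff_eq hr.prime Nat.prime_two).1 h3)
    · rcases (hr.prime.dvd_mul).1 h3 with h4 | h4
      · exact hr2 ((Nat.prime_dvd_prime_iff_eq hr.prime Nat.prime_two).1 h4)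
      · have := Nat.le_of_dvd hf₀ h4
        nlinarith
  have hq : 2 ≤ Fintype.card F := Fintype.one_lt_card
  have hv : r ∣ r ^ (Fintype.card F ^ k - 1).factorization r := by
    apply dvd_pow_self
    have h3 : r ∣ Fintype.card F ^ k - 1 := (h2.dvd_iff k).2 dvd_rfl
    have h4 : Fintype.card F ^ k - 1 ≠ 0 := by
      have : 2 ≤ Fintype.card F ^ k := hq.trans (Nat.le_self_pow (by omega) _)
      omega
    exact (hr.prime.factorization_pos_of_dvd h4 h3).ne'
  refine ⟨r, hr.prime, h1.ord, h2, ?_⟩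
  rcases Cfsg.Agent.H815.Rl.side h hn e hp hF hr.prime h2.ord hk hkn hrf with h3 | h3
  · exact Or.inl (hv.trans h3.1)
  · exact Or.inr (hv.trans h3.1)

end

end Cfsg.Agent.H851.Rl
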