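import Cfsg.Agent.H251.GeoCardC
import Cfsg.Agent.H124.LinCyc
import Cfsg.Agent.LieClassical.OmegaReindex

/-!
# S3691: the list lemmas (helper851)

* `Big p f k r a` : `r` is a prime with `ord_r(p) = f k`, `r ^ a ∣ q ^ k - 1`, `2 k + 1 < r ^ a`, `q = p ^ f`;
* `GPPS` : the statement S5948;
* `irr` : irreducible subgroups of `GL_n(q)` (any index type), `n ≥ 10`, of order divisible by `r ^ a`, `n < 2 k`.
-/

set_option autoImplicit false
set_option linter.unusedSectionVars false

namespace Cfsg.Agent.H851.Rl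

open Cfsg Cfsg.Geo Module Matrix
open Cfsg.Agent.LieClassical.OmegaReindex (glReindex coe_glReindex glReindex_mulVec)
open scoped MatrixGroups

/-- a `p`-primitive prime power, larger than `2 k + 1` -/
structure Big (p f k r a : ℕ) : Prop where
  hp : p.Prime
  prime : r.Prime
  ord : orderOf ((p : ℕ) : ZMod r) = f * k
  hf : 1 ≤ f
  hk : 1 ≤ k
  dvd : r ^ a ∣ (p ^ f) ^ k - 1
  big : 2 * k + 1 < r ^ a

/-- **S5948** for fields in the lowest universe. -/
def GPPS : Prop :=
  ∀ (F : Type) [Field F] [Fintype F] {q : ℕ} (_ : Fintype.card F = q) (n k : ℕ) (_ : 10 ≤ n) (_ : n < 2 * k)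
    (g : GL (Fin n) F) (_ : 2 * k + 1 < orderOf g) (_ : orderOf g ∣ q ^ k - 1)
    (_ : ∀ i : ℕ, 1 ≤ i → i < k → Nat.Coprime (orderOf g) (q ^ i - 1))
    (H : Subgroup (GL (Fin n) F)) (_ : g ∈ H) (_ : ActsIrreducibly (matrixSet H)),
    (∃ (F₀ : Subfield F) (r : ℕ) (P : GL (Fin n) F), r.Prime ∧ Fintype.card F = Nat.card F₀ ^ r ∧
      H ≤ subfieldSubgroup F₀ P) ∨
    (∃ (r : ℕ) (E : Subalgebra F (Matrix (Fin n) (Fin n) F)), r.Prime ∧ r ∣ Nat.gcd n k ∧ IsFieldSubalgebra r E ∧
        H ≤ subalgebraNormalizer E) ∨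
    specialLinear (Fin n) F ≤ H ∨
    (∃ f : (Fin n → F) → (Fin n → F) → F, IsSymplecticForm f ∧
        ∀ x : GL (Fin n) F, FixesForm {(x : Matrix (Fin n) (Fin n) F)} f → x ∈ H) ∨
    (∃ (τ : F ≃+* F) (f : (Fin n → F) → (Fin n → F) → F), IsUnitaryForm τ f ∧
        ∀ x : GL (Fin n) F, FixesForm {(x : Matrix (Fin n) (Fin n) F)} f →
          Matrix.GeneralLinearGroup.det x = 1 → x ∈ H) ∨
    (∃ Q : (Fin n → F) → F, IsNondegenerateQuadraticForm Q ∧ omegaGL Q ≤ H)

section

variable {ι : Type} [Fintype ι] [DecidableEq ι] {F : Type} [Field F]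

/-- the classical groups on their natural module -/
def Nat' (R : Subgroup (GL ι F)) : Prop :=
  specialLinear ι F ≤ R ∨
  (∃ f : (ι → F) → (ι → F) → F, IsSymplecticForm f ∧ ∀ x : GL ι F, FixesForm {(x : Matrix ι ι F)} f → x ∈ R) ∨
  (∃ (τ : F ≃+* F) (f : (ι → F) → (ι → F) → F), IsUnitaryForm τ f ∧
    ∀ x : GL ι F, FixesForm {(x : Matrix ι ι F)} f → Matrix.GeneralLinearGroup.det x = 1 → x ∈ R) ∨
  (∃ Q : (ι → F) → F, IsNondegenerateQuadraticForm Q ∧ omegaGL Q ≤ R)

/-- an extension field group -/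
def Ext (s : ℕ) (R : Subgroup (GL ι F)) : Prop :=
  ∃ E : Subalgebra F (Matrix ι ι F), IsFieldSubalgebra s E ∧ R ≤ subalgebraNormalizer E

/-! ### transport -/

section transport

variable {κ : Type} [Fintype κ] [DecidableEq κ] (e : ι ≃ κ)

/-- the same group in other coordinates -/
def re (R : Subgroup (GL ι F)) : Subgroup (GL κ F) := R.map (glReindex F e).toMonoidHom

variable {R : Subgroup (GL ι F)}

theorem mem_re {g : GL ι F} : glReindex F e g ∈ re e R ↔ g ∈ R := by
  constructor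
  · rintro ⟨h, hh, h1⟩
    exact (glReindex F e).injective h1 ▸ hh
  · intro h
    exact ⟨g, h, rfl⟩

theorem glReindex_comp (g : GL ι F) (v : ι → F) :
    ((glReindex F e g : GL κ F) : Matrix κ κ F) *ᵥ (v ∘ e.symm) = ((g : Matrix ι ι F) *ᵥ v) ∘ e.symm := by
  rw [glReindex_mulVec, Function.comp_assoc, Equiv.symm_comp_self, Function.comp_id]

theorem glReindex_coe' (g : GL ι F) :
    ((glReindex F e g : GL κ F) : Matrix κ κ F) = Matrix.reindexAlgEquiv F F e (g : Matrix ι ι F) := rfl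

theorem det_glReindex (g : GL ι F) :
    Matrix.GeneralLinearGroup.det (glReindex F e g) = Matrix.GeneralLinearGroup.det g := by
  apply Units.ext
  change Matrix.det ((glReindex F e g : GL κ F) : Matrix κ κ F) = Matrix.det (g : Matrix ι ι F)
  rw [coe_glReindex, Matrix.det_submatrix_equiv_self]

/-- the map on vectors -/
def vec : (ι → F) ≃ₗ[F] (κ → F) := (LinearEquiv.funCongrLeft F F e.symm)

theorem vec_apply (v : ι → F) : vec e v = v ∘ e.symm := rfl

theorem irr_re (h : ActsIrreducibly (matrixSet R)) : ActsIrreducibly (matrixSet (re e R)) := by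
  intro W hW
  have h1 := h (W.comap (vec (F := F) e).toLinearMap) ?_
  · rcases h1 with h1 | h1
    · left
      rw [eq_bot_iff]
      intro w hw
      have h2 : (vec e).symm w ∈ W.comap (vec (F := F) e).toLinearMap := by
        change vec e ((vec e).symm w) ∈ W
        rwa [LinearEquiv.apply_symm_apply]
      rw [h1, Submodule.mem_bot] at h2
      rw [Submodule.mem_bot]
      exact (LinearEquiv.map_eq_zero_iff _).1 h2
    · right
      rw [eq_top_iff]
      intro w _
      have h2 : (vec e).symm w ∈ W.comap (vec (F := F) e).toLinearMap := by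
        rw [h1]; trivial
      have h3 : vec e ((vec e).symm w) ∈ W := h2
      rwa [LinearEquiv.apply_symm_apply] at h3
  · rintro _ ⟨g, hg, rfl⟩
    rintro _ ⟨v, hv, rfl⟩
    change vec e (Matrix.toLin' (g : Matrix ι ι F) v) ∈ W
    rw [vec_apply, Matrix.toLin'_apply, ← glReindex_comp]
    exact hW _ ⟨glReindex F e g, ⟨g, hg, rfl⟩, rfl⟩ ⟨vec e v, hv, by rw [Matrix.toLin'_apply]; rfl⟩

theorem form_back {f : (κ → F) → (κ → F) → F} {x : GL ι F}
    (h : FixesForm {(x : Matrix ι ι F)} (fun v w => f (v ∘ e.symm) (w ∘ e.symm))) :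
    FixesForm {((glReindex F e x : GL κ F) : Matrix κ κ F)} f := by
  rintro _ rfl u v
  have h1 := h _ rfl (u ∘ e) (v ∘ e)
  simp only at h1
  rw [← glReindex_comp, ← glReindex_comp, Function.comp_assoc, Function.comp_assoc, Equiv.self_comp_symm,
    Function.comp_id, Function.comp_id] at h1
  exact h1

theorem comp_symm_ne {v : ι → F} (h : v ≠ 0) : v ∘ e.symm ≠ 0 := by
  intro h0
  apply h
  exact (LinearEquiv.map_eq_zero_iff (vec (F := F) e)).1 h0

theorem nondeg_back {f : (κ → F) → (κ → F) → F} (h : IsNondegenerateForm f) :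
    IsNondegenerateForm (fun v w : ι → F => f (v ∘ e.symm) (w ∘ e.symm)) := by
  intro v hv
  obtain ⟨⟨x, hx⟩, ⟨y, hy⟩⟩ := h _ (comp_symm_ne e hv)
  refine ⟨⟨x ∘ e, ?_⟩, ⟨y ∘ e, ?_⟩⟩
  · change f ((x ∘ e) ∘ e.symm) (v ∘ e.symm) ≠ 0
    rwa [Function.comp_assoc, Equiv.self_comp_symm, Function.comp_id]
  · change f (v ∘ e.symm) ((y ∘ e) ∘ e.symm) ≠ 0
    rwa [Function.comp_assoc, Equiv.self_comp_symm, Function.comp_id]

theorem bilin_back {f : (κ → F) → (κ → F) → F} (h : IsBilinearForm f) :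
    IsBilinearForm (fun v w : ι → F => f (v ∘ e.symm) (w ∘ e.symm)) :=
  ⟨fun x y v => h.add_left _ _ _, fun c x v => h.smul_left _ _ _, fun v x y => h.add_right _ _ _,
    fun c v x => h.smul_right _ _ _⟩

theorem symp_back {f : (κ → F) → (κ → F) → F} (h : IsSymplecticForm f) :
    IsSymplecticForm (fun v w : ι → F => f (v ∘ e.symm) (w ∘ e.symm)) :=
  ⟨bilin_back e h.bilinear, fun v w => h.skew _ _, fun v => h.alternating _, nondeg_back e h.nondegenerate⟩

theorem uni_back {τ : F ≃+* F} {f : (κ → F) → (κ → F) → F} (h : IsUnitaryForm τ f) :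
    IsUnitaryForm τ (fun v w : ι → F => f (v ∘ e.symm) (w ∘ e.symm)) :=
  ⟨h.ne_refl, h.involutive, fun x y v => h.add_left _ _ _, fun c x v => h.smul_left _ _ _,
    fun v w => h.herm _ _, nondeg_back e h.nondegenerate⟩

theorem quad_back {Q : (κ → F) → F} (h : IsNondegenerateQuadraticForm Q) :
    IsNondegenerateQuadraticForm (fun v : ι → F => Q (v ∘ e.symm)) :=
  ⟨fun c v => h.smul _ _, bilin_back e h.polar_bilinear, nondeg_back e h.nondegenerate⟩

theorem omegaGL_eq (Q : (ι → F) → F) :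
    omegaGL Q = ⁅isometryGroup F Q, isometryGroup F Q⁆ := by
  rw [omegaGL, Omega, commutator_def, Subgroup.map_commutator, ← MonoidHom.range_eq_map, Subgroup.range_subtype]

theorem omegaGL_re (Q : (κ → F) → F) :
    re e (omegaGL (fun v : ι → F => Q (v ∘ e.symm))) = omegaGL Q := by
  rw [omegaGL_eq, omegaGL_eq, re, Subgroup.map_commutator,
    Cfsg.Agent.LieClassical.OmegaReindex.map_isometryGroup e _ Q]
  intro v
  rw [Function.comp_assoc, Equiv.self_comp_symm, Function.comp_id]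

theorem nat_back (h : Nat' (re e R)) : Nat' R := by
  rcases h with h | ⟨f, hf, h⟩ | ⟨τ, f, hf, h⟩ | ⟨Q, hQ, h⟩
  · left
    intro x hx
    rw [← mem_re e]
    apply h
    change Matrix.GeneralLinearGroup.det (glReindex F e x) = 1
    rw [det_glReindex]
    exact hx
  · right; left
    exact ⟨_, symp_back e hf, fun x hx => (mem_re e).1 (h _ (form_back e hx))⟩
  · right; right; left
    exact ⟨τ, _, uni_back e hf, fun x hx hd => (mem_re e).1 (h _ (form_back e hx) (by rw [det_glReindex, hd]))⟩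
  · right; right; right
    refine ⟨_, quad_back e hQ, fun x hx => ?_⟩
    rw [← mem_re e]
    apply h
    rw [← omegaGL_re e]
    exact ⟨x, hx, rfl⟩

theorem field_back {s : ℕ} {E : Subalgebra F (Matrix κ κ F)} (h : IsFieldSubalgebra s E) :
    IsFieldSubalgebra s (E.map (Matrix.reindexAlgEquiv F F e.symm : Matrix κ κ F →ₐ[F] Matrix ι ι F)) := by
  refine ⟨?_, ?_, ?_⟩
  · rintro _ ⟨x, hx, rfl⟩ _ ⟨y, hy, rfl⟩
    change (Matrix.reindexAlgEquiv F F e.symm) x * (Matrix.reindexAlgEquiv F F e.symm) y =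
      (Matrix.reindexAlgEquiv F F e.symm) y * (Matrix.reindexAlgEquiv F F e.symm) x
    rw [← map_mul, ← map_mul, h.comm x hx y hy]
  · rintro _ ⟨x, hx, rfl⟩ hx0
    have hx1 : x ≠ 0 := by
      rintro rfl
      exact hx0 (map_zero _)
    obtain ⟨y, hy, hxy⟩ := h.inv x hx hx1
    refine ⟨_, ⟨y, hy, rfl⟩, ?_⟩
    change (Matrix.reindexAlgEquiv F F e.symm) x * (Matrix.reindexAlgEquiv F F e.symm) y = 1
    rw [← map_mul, hxy, map_one]
  · rw [← h.finrank_eq]
    exact ((E.equivMapOfInjective (Matrix.reindexAlgEquiv F F e.symm : Matrix κ κ F →ₐ[F] Matrix ι ι F)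
      (Matrix.reindexAlgEquiv F F e.symm).injective).toLinearEquiv.finrank_eq).symm

theorem ext_back {s : ℕ} (h : Ext s (re e R)) : Ext s R := by
  obtain ⟨E, hE, hR⟩ := h
  refine ⟨_, field_back e hE, fun g hg => ?_⟩
  have h1 := hR ((mem_re e).2 hg)
  have key : ∀ M : Matrix ι ι F, M ∈ E.map (Matrix.reindexAlgEquiv F F e.symm : Matrix κ κ F →ₐ[F] Matrix ι ι F) ↔
      Matrix.reindexAlgEquiv F F e M ∈ E := by
    intro M
    constructor
    · rintro ⟨x, hx, rfl⟩
      have h2 : (Matrix.reindexAlgEquiv F F e) ((Matrix.reindexAlgEquiv F F e.symm) x) = x := by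
        ext i j; simp [Matrix.reindexAlgEquiv_apply, Matrix.reindex_apply]
      change (Matrix.reindexAlgEquiv F F e) ((Matrix.reindexAlgEquiv F F e.symm) x) ∈ E
      rwa [h2]
    · intro h2
      refine ⟨_, h2, ?_⟩
      change (Matrix.reindexAlgEquiv F F e.symm) ((Matrix.reindexAlgEquiv F F e) M) = M
      ext i j; simp [Matrix.reindexAlgEquiv_apply, Matrix.reindex_apply]
  intro k
  rw [key, key, map_mul, map_mul]
  exact h1 _

end transport

end

/-! ### numbers -/

namespace Big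

variable {p f k r a : ℕ} (h : Big p f k r a)
include h

theorem r_ne_two (hk : 2 ≤ f * k) : r ≠ 2 := by
  rintro rfl
  have h1 := h.ord
  have hp : ((p : ℕ) : ZMod 2) = 0 ∨ ((p : ℕ) : ZMod 2) = 1 := by
    generalize ((p : ℕ) : ZMod 2) = x
    revert x; decide
  rcases hp with hp | hp
  · rw [hp, orderOf_eq_zero_iff'.2 (by
      intro m hm
      rw [zero_pow hm.ne']; exact zero_ne_one)] at h1
    omega
  · rw [hp, orderOf_one] at h1
    omega

theorem fk_pos : 1 ≤ f * k := Nat.mul_pos h.hf h.hk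

theorem iff (j : ℕ) : r ∣ (p ^ f) ^ j - 1 ↔ k ∣ j := by
  have := Fact.mk h.prime
  have hne : ((p : ℕ) : ZMod r) ≠ 0 := by
    intro h0
    have h1 := h.ord
    rw [h0, orderOf_eq_zero_iff'.2 (by
      intro m hm
      rw [zero_pow hm.ne']; exact zero_ne_one)] at h1
    have := h.fk_pos
    omega
  have hp0 : p ≠ 0 := by rintro rfl; exact hne Nat.cast_zero
  have h1 : 1 ≤ (p ^ f) ^ j := Nat.one_le_pow _ _ (Nat.pow_pos (Nat.pos_of_ne_zero hp0))
  rw [← ZMod.natCast_eq_zero_iff, Nat.cast_sub h1, Nat.cast_one, sub_eq_zero, ← pow_mul, Nat.cast_pow,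
    ← orderOf_dvd_iff_pow_eq_one, h.ord]
  exact Nat.mul_dvd_mul_iff_left h.hf

theorem not_dvd_q : ¬ r ∣ p ^ f := by
  intro h1
  have h2 : r ∣ (p ^ f) ^ k - 1 := (h.iff k).2 dvd_rfl
  have h3 : r ∣ (p ^ f) ^ k := dvd_pow h1 (by have := h.hk; omega)
  have h4 : 1 ≤ (p ^ f) ^ k := by
    rcases Nat.eq_zero_or_pos ((p ^ f) ^ k) with h5 | h5
    · exfalso
      have h6 : p = 0 := by
        have := (Nat.pow_eq_zero.1 h5).1
        exact (Nat.pow_eq_zero.1 this).1
      have h7 := h.ord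
      rw [h6, Nat.cast_zero, orderOf_eq_zero_iff'.2 (by
        intro m hm
        have := Fact.mk h.prime
        rw [zero_pow hm.ne']; exact zero_ne_one)] at h7
      have := h.fk_pos
      omega
    · exact h5
  have h5 : r ∣ 1 := (Nat.dvd_sub_iff_right h4 h3).1 h2
  exact h.prime.one_lt.ne' (Nat.dvd_one.1 h5)

theorem coprime {i : ℕ} (h1 : 1 ≤ i) (h2 : i < k) : Nat.Coprime (r ^ a) ((p ^ f) ^ i - 1) := by
  apply Nat.Coprime.pow_left
  rw [h.prime.coprime_iff_not_dvd, h.iff]
  intro h3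
  have := Nat.le_of_dvd h1 h3
  omega

theorem a_pos : 1 ≤ a := by
  rcases Nat.eq_zero_or_pos a with h1 | h1
  · have h2 := h.big
    rw [h1, pow_zero] at h2
    omega
  · exact h1

end Big

/-! ### irreducible groups -/

section irr

variable {ι : Type} [Fintype ι] [DecidableEq ι] {F : Type} [Field F] [Fintype F] {R : Subgroup (GL ι F)}
  {p f k r a : ℕ}

theorem exists_elt (hF : Fintype.card F = p ^ f) (h : Big p f k r a) (hk : Fintype.card ι < 2 * k) (h2 : 2 ≤ f * k)
    (hR : r ^ a ∣ Nat.card R) : ∃ g ∈ R, orderOf g = r ^ a := by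
  classical
  have := Fact.mk h.prime
  have hfin : Finite (GL ι F) := inferInstance
  obtain ⟨P⟩ : Nonempty (Sylow r R) := inferInstance
  have hcyc : IsCyclic P := Cfsg.Agent.H124.LinCyc.isCyclic_of_gl (F := F) (ι := ι) (p := r) (e := k) (h.r_ne_two h2) h.hk
    (by rw [hF]; exact h.iff) hk P.isPGroup' (R.subtype.comp (P : Subgroup R).subtype)
    (R.subtype_injective.comp (P : Subgroup R).subtype_injective)
  have hdvd : r ^ a ∣ Nat.card P := by
    rw [P.card_eq_multiplicity]
    exact pow_dvd_pow _ ((h.prime.pow_dvd_iff_le_factorization Nat.card_pos.ne').1 hR)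
  obtain ⟨g, hg⟩ := IsCyclic.exists_ofOrder_eq_natCard (α := P)
  obtain ⟨c, hc⟩ := hdvd
  have hc0 : c ≠ 0 := by
    rintro rfl
    have : 0 < Nat.card P := Nat.card_pos
    omega
  refine ⟨((g ^ c : P) : R), ((g ^ c : P) : R).2, ?_⟩
  rw [Subgroup.orderOf_coe, Subgroup.orderOf_coe, orderOf_pow' _ hc0, hg, hc, Nat.gcd_eq_right (Dvd.intro_left _ rfl),
    Nat.mul_div_cancel _ (Nat.pos_of_ne_zero hc0)]

/-- primes dividing the order of an extension field group -/
theorem ext_dvd {s : ℕ} (hs : s.Prime) (hF : Fintype.card F = p ^ f) {k' r' : ℕ} (hr : r'.Prime)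
    (hord : orderOf ((p : ℕ) : ZMod r') = f * k') (hf : 1 ≤ f) (hk' : 1 ≤ k')
    (hk : Fintype.card ι < 2 * k') (hne : Nonempty ι) (hE : Ext s R) (hR : r' ∣ Nat.card R) : r' = s ∨ s ∣ k' := by
  obtain ⟨E, hE, hRE⟩ := hE
  have hfin : Finite (GL ι F) := inferInstance
  have := Fact.mk hr
  have hne0 : ((p : ℕ) : ZMod r') ≠ 0 := by
    intro h0
    have h1 := hord
    rw [h0, orderOf_eq_zero_iff'.2 (by
      intro m hm
      rw [zero_pow hm.ne']; exact zero_ne_one)] at h1
    have : 1 ≤ f * k' := Nat.mul_pos hf hk'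
    omega
  have hp0 : p ≠ 0 := by rintro rfl; exact hne0 Nat.cast_zero
  have hiff : ∀ j, r' ∣ (p ^ f) ^ j - 1 ↔ k' ∣ j := by
    intro j
    have h1 : 1 ≤ (p ^ f) ^ j := Nat.one_le_pow _ _ (Nat.pow_pos (Nat.pos_of_ne_zero hp0))
    rw [← ZMod.natCast_eq_zero_iff, Nat.cast_sub h1, Nat.cast_one, sub_eq_zero, ← pow_mul, Nat.cast_pow,
      ← orderOf_dvd_iff_pow_eq_one, hord]
    exact Nat.mul_dvd_mul_iff_left hf
  have hrF : ¬ r' ∣ Nat.card F := by
    rw [Nat.card_eq_fintype_card, hF]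
    intro h1
    have h2 := hr.dvd_of_dvd_pow h1
    exact hne0 ((ZMod.natCast_eq_zero_iff p r').2 h2)
  rcases Cfsg.Agent.H251.GeoCard.extension hs hE hr hrF (hR.trans (Subgroup.card_dvd_of_le hRE)) with h1 | ⟨i, h1, h2, h3⟩
  · exact Or.inl h1
  · right
    rw [Nat.card_eq_fintype_card, hF, ← pow_mul, hiff] at h3
    have h4 : s * i ≤ Fintype.card ι := (Nat.mul_le_mul_left s h2).trans (Nat.mul_div_le _ _)
    obtain ⟨c, hc⟩ := h3
    have hsi : 1 ≤ s * i := Nat.mul_pos hs.pos h1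
    have hc1 : c = 1 := by
      have : c < 2 := by
        by_contra hcon
        push Not at hcon
        have := Nat.mul_le_mul_left k' hcon
        omega
      have : c ≠ 0 := by rintro rfl; omega
      omega
    rw [hc1, mul_one] at hc
    exact ⟨i, hc.symm⟩

/-- **THE LIST LEMMA for irreducible groups.** -/
theorem irr (G : GPPS) (hF : Fintype.card F = p ^ f) (h : Big p f k r a) (hn : 10 ≤ Fintype.card ι)
    (hk : Fintype.card ι < 2 * k) (hR : r ^ a ∣ Nat.card R) (hirr : ActsIrreducibly (matrixSet R)) :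
    (∃ s, s.Prime ∧ s ∣ Nat.gcd (Fintype.card ι) k ∧ Ext s R) ∨ Nat' R := by
  classical
  have hfin : Finite (GL ι F) := inferInstance
  have h2 : 2 ≤ f * k := by
    calc 2 ≤ 1 * k := by omega
      _ ≤ f * k := Nat.mul_le_mul_right _ h.hf
  obtain ⟨g, hgR, hg⟩ := exists_elt hF h hk h2 hR
  set e := Fintype.equivFin ι with he
  have hord : orderOf (glReindex F e g) = r ^ a := by
    rw [← hg]
    exact orderOf_injective (glReindex F e).toMonoidHom (glReindex F e).injective g
  rcases G F hF (Fintype.card ι) k hn hk (glReindex F e g) (by rw [hord]; exact h.big) (by rw [hord]; exact h.dvd)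
    (fun i h1 h2 => by rw [hord]; exact h.coprime h1 h2) (re e R) ((mem_re e).2 hgR) (irr_re e hirr) with
    ⟨F₀, s, P, hs, hcard, hle⟩ | ⟨s, E, hs, hsd, hE, hle⟩ | h1 | h1 | h1 | h1
  · exfalso
    have hr1 : r ∣ Nat.card (re e R) := by
      have h3 : Nat.card (re e R) = Nat.card R := Subgroup.card_map_of_injective (glReindex F e).injective
      rw [h3]
      exact (dvd_pow_self r (by have := h.a_pos; omega)).trans hR
    have hrF : ¬ r ∣ Nat.card F := by rw [Nat.card_eq_fintype_card, hF]; exact h.not_dvd_q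
    rcases Cfsg.Agent.H251.GeoCard.subfield h.prime hrF (hr1.trans (Subgroup.card_dvd_of_le hle)) with h3 | ⟨i, hi1, hi2, hi3⟩
    · rw [Nat.card_eq_fintype_card, hF] at h3
      have h4 := (h.iff 1).1 (by rwa [pow_one])
      have := Nat.le_of_dvd one_pos h4
      omega
    · rw [Fintype.card_fin] at hi2
      -- `|F₀| = p ^ f₀`, `f = s f₀`
      have h4 : r ∣ (p ^ f) ^ i - 1 := by
        rw [← hF, hcard, ← pow_mul, mul_comm, pow_mul]
        have h5 : Nat.card F₀ ^ i - 1 ∣ (Nat.card F₀ ^ i) ^ s - 1 := by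
          have := Nat.sub_dvd_pow_sub_pow (Nat.card F₀ ^ i) 1 s
          rwa [one_pow] at this
        exact hi3.trans h5
      rw [h.iff] at h4
      have hik : i = k := by
        obtain ⟨c, hc⟩ := h4
        have : c < 2 := by
          by_contra hcon
          push Not at hcon
          have := Nat.mul_le_mul_left k hcon
          omega
        have : c ≠ 0 := by rintro rfl; omega
        have : c = 1 := by omega
        rw [hc, this, mul_one]
      rw [hik] at hi3
      -- `|F₀| ^ k = p ^ j`, `j < f k`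
      have h5 : Nat.card F₀ ∣ p ^ f := by
        rw [← hF, hcard]
        exact dvd_pow_self _ hs.ne_zero
      obtain ⟨j, -, hj⟩ := (Nat.dvd_prime_pow h.hp).1 h5
      have hjs : j * s = f := by
        have h6 : p ^ (j * s) = p ^ f := by rw [pow_mul, ← hj, ← hcard, hF]
        exact Nat.pow_right_injective h.hp.two_le h6
      have := Fact.mk h.prime
      have h7 : ((p : ℕ) : ZMod r) ^ (j * k) = 1 := by
        have h8 : 1 ≤ (p ^ j) ^ k := Nat.one_le_pow _ _ (Nat.pow_pos h.hp.pos)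
        rw [hj, ← ZMod.natCast_eq_zero_iff, Nat.cast_sub h8, Nat.cast_one, sub_eq_zero, ← pow_mul, Nat.cast_pow] at hi3
        exact hi3
      have h8 := orderOf_dvd_of_pow_eq_one h7
      rw [h.ord] at h8
      have hj0 : 0 < j := by
        rcases Nat.eq_zero_or_pos j with h9 | h9
        · rw [h9, zero_mul] at hjs
          have := h.hf
          omega
        · exact h9
      have h9 := Nat.le_of_dvd (Nat.mul_pos hj0 h.hk) h8
      have h10 : f ≤ j := Nat.le_of_mul_le_mul_right h9 h.hk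
      have h11 : j * 2 ≤ j * s := Nat.mul_le_mul_left _ hs.two_le
      omega
  · exact Or.inl ⟨s, hs, hsd, ext_back e ⟨E, hE, hle⟩⟩
  · exact Or.inr (nat_back e (Or.inl h1))
  · exact Or.inr (nat_back e (Or.inr (Or.inl h1)))
  · exact Or.inr (nat_back e (Or.inr (Or.inr (Or.inl h1))))
  · exact Or.inr (nat_back e (Or.inr (Or.inr (Or.inr h1))))

end irr

end Cfsg.Agent.H851.Rl
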